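/-
Centralisers of the root elements `x_r(1)` and the fixed points of a field automorphism
on a Chevalley group.
-/
import Cfsg.Agent.Lib.ReeAut.FieldGen
import Cfsg.Agent.Lib.Chev.Simple
import Cfsg.Agent.Lib.Chev.Canon

set_option autoImplicit false

namespace Cfsg.Agent.Lib.Chev

open Cfsg.Lie Cfsg.Agent.Lib.ReeAut

section

variable {F : Type*} [Field F] {D : ChevalleyDatum} {T : Tbl}

namespace Tbl.Good2

variable (hG : T.Good2 D)
include hG

/-- A word sending each simple root to a positive root lies in `H`. -/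
theorem nProd_mem_H_of_simple : ∀ (n : ℕ) (l : List ℕ), l.length = n → (∀ i ∈ l, i < D.rank) →
    (∀ i, i < D.rank → D.nroots / 2 ≤ wperm T l (D.simple i)) →
    hG.nProd (F := F) l ∈ D.diagonalSubgroup F := by
  intro n
  induction n using Nat.strong_induction_on with
  | _ n ih =>
    intro l hlen hl hposl
    rcases List.eq_nil_or_concat' l with rfl | ⟨L, k, rfl⟩
    · exact Subgroup.one_mem _
    · have hk := hl k (by simp)
      have hL : ∀ i ∈ L, i < D.rank := fun i hi => hl i (List.mem_append_left _ hi)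
      have hp := hG.simple_lt hk
      have hpp : D.nroots / 2 ≤ D.simple k := (hG.isPos_iff hp).1 (hG.simple_pos hk)
      have h1 := hposl k hk
      rw [wperm_append, wperm_cons, wperm_nil, hG.refl_simple hk] at h1
      have hneg : D.neg (D.simple k) < D.nroots / 2 := by
        have h3 := hG.neg_add hp
        have h4 := hG.even_n
        omega
      obtain ⟨l₁, j, l₂, rfl, hj, e⟩ := hG.exists_split hL (hG.neg_lt hp) hneg h1
      have hl₁ : ∀ i ∈ l₁, i < D.rank := fun i hi => hL i (List.mem_append_left _ hi)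
      have hl₂ : ∀ i ∈ l₂, i < D.rank := fun i hi => hL i (List.mem_append_right _ (List.mem_cons_of_mem _ hi))
      have e' : wperm T l₂ (D.simple k) = D.simple j := by
        rw [hG.wperm_neg hl₂ hp] at e
        have := congrArg D.neg e
        rwa [hG.neg_neg (hG.wperm_lt hl₂ hp), hG.neg_neg (hG.simple_lt hj)] at this
      obtain ⟨c, hc, ec⟩ := hG.nProd_conj_nR (F := F) hl₂ hp
      have ec1 := ec 1
      rw [hG.nR_simple hk, hG.nR_congr (hG.wperm_lt hl₂ hp) (hG.simple_lt hj) e' rfl] at ec1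
      have hy : ∃ y ∈ D.diagonalSubgroup F, hG.nU hj * (hG.nProd l₂ * hG.nU hk * (hG.nProd l₂)⁻¹) = y := by
        rw [ec1]
        rcases hG.nR_simple_cases (F := F) hj hc with h2 | h2
        · rw [h2]
          exact ⟨_, hG.nU_sq_mem hj, rfl⟩
        · rw [h2]
          exact ⟨_, hG.nU_inv_mem hj, rfl⟩
      obtain ⟨y, hy, ey⟩ := hy
      have hprod : hG.nProd (F := F) (l₁ ++ j :: l₂ ++ [k]) =
          (hG.nProd l₁ * y * (hG.nProd l₁)⁻¹) * hG.nProd (l₁ ++ l₂) := by
        rw [← ey]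
        simp only [List.append_assoc, List.cons_append, hG.nProd_append, nProd_cons, nProd_nil, mul_one,
          hG.nE_eq hj, hG.nE_eq hk]
        group
      have hz : hG.nProd l₁ * y * (hG.nProd l₁)⁻¹ ∈ D.diagonalSubgroup F :=
        hG.N_conj_H (hG.nProd_mem_N hl₁) hy
      rw [hprod]
      refine Subgroup.mul_mem _ hz ?_
      have hl' : ∀ i ∈ l₁ ++ l₂, i < D.rank := by
        intro i hi
        rcases List.mem_append.1 hi with h3 | h3
        · exact hl₁ i h3
        · exact hl₂ i h3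
      refine ih (l₁ ++ l₂).length ?_ _ rfl hl' ?_
      · simp only [List.length_append, List.length_cons, List.length_nil] at hlen ⊢
        omega
      · intro i hi
        have hr := hG.simple_lt hi
        obtain ⟨c₁, hc₁, e₁⟩ := hG.nProd_conj_x (F := F) hl hr
        obtain ⟨c₂, hc₂, e₂⟩ := hG.nProd_conj_x (F := F) hl' hr
        obtain ⟨c₃, hc₃, e₃⟩ := hG.H_conj_x hz (hG.wperm_lt hl' hr)
        have h5 := e₁ 1
        rw [hprod] at h5
        have h6 : (hG.nProd l₁ * y * (hG.nProd l₁)⁻¹) * hG.nProd (l₁ ++ l₂) * hG.xU hr 1 *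
            ((hG.nProd l₁ * y * (hG.nProd l₁)⁻¹) * hG.nProd (l₁ ++ l₂))⁻¹ =
            (hG.nProd l₁ * y * (hG.nProd l₁)⁻¹) * (hG.nProd (l₁ ++ l₂) * hG.xU hr 1 * (hG.nProd (l₁ ++ l₂))⁻¹) *
              (hG.nProd l₁ * y * (hG.nProd l₁)⁻¹)⁻¹ := by group
        rw [h6, e₂, e₃] at h5
        have h7 := congrArg (fun g : GL D.Idx F => (g : Matrix D.Idx D.Idx F)) h5
        simp only [Tbl.Good.xU_coe] at h7
        have hc₁' : c₁ * 1 ≠ 0 := by
          rcases hc₁ with rfl | rfl <;> simp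
        have h8 := hG.x_root_unique (hG.wperm_lt hl hr) (hG.wperm_lt hl' hr) hc₁' h7.symm
        rw [← h8]
        exact hposl i hi

/-- The simple root element does not lie in `U_i`. -/
lemma x_simple_not_mem_Ui {i : ℕ} (hi : i < D.rank) : hG.xU (hG.simple_lt hi) (1 : F) ∉ Ui D F i := by
  intro h
  have hp := hG.simple_lt hi
  have h2 := (Subgroup.mem_normalizer_iff.1 (hG.nU_normalizes_Ui hi) _).1 h
  rw [hG.nU_conj hi hp, hG.xU_congr (hG.refl_lt' hi hp) (hG.neg_lt hp) (hG.refl_simple hi) rfl] at h2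
  have hpp : D.nroots / 2 ≤ D.simple i := (hG.isPos_iff hp).1 (hG.simple_pos hi)
  have hneg : D.neg (D.simple i) < D.nroots / 2 := by
    have h3 := hG.neg_add hp
    have h4 := hG.even_n
    omega
  exact hG.xU_neg_not_mem_B _ hneg (mul_ne_zero (hG.eps_ne hi hp) one_ne_zero)
    (le_borel_U (hG.Ui_le_U i h2))

/-- `B` normalises `U_i`. -/
lemma B_le_normalizer_Ui {i : ℕ} (hi : i < D.rank) :
    D.borelSubgroup F ≤ Subgroup.normalizer (Ui D F i : Set (GL D.Idx F)) := by
  refine sup_le ?_ (hG.H_le_normalizer_Ui i)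
  rw [← hG.Ui_sup hi]
  exact sup_le Subgroup.le_normalizer (le_trans le_sup_left (hG.X_le_normalizer_Ui hi))

/-- An element commuting with `x_p(1)` for all simple `p` lies in `B`. -/
theorem mem_B_of_comm {g : GL D.Idx F} (hg : g ∈ D.group F)
    (hc : ∀ i (hi : i < D.rank), g * hG.xU (hG.simple_lt hi) (1 : F) = hG.xU (hG.simple_lt hi) 1 * g) :
    g ∈ D.borelSubgroup F := by
  obtain ⟨n, hn, b, hb, b', hb', rfl⟩ := hG.bruhat_exists hg
  obtain ⟨h, hh, l, hl, e⟩ := hG.N_form hn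
  have key : ∀ i, i < D.rank → D.nroots / 2 ≤ wperm T l (D.simple i) := by
    intro i hi
    by_contra hlt
    push Not at hlt
    have hp := hG.simple_lt hi
    have hPi : (D.rootSubgroup F (D.simple i)).map (MulAut.conj n).toMonoidHom ≤ D.negUnipotent F := by
      rintro _ ⟨x, hx, rfl⟩
      obtain ⟨t, rfl⟩ := hG.rootSubgroup_mem hp hx
      show n * hG.xU hp t * n⁻¹ ∈ _
      obtain ⟨c₁, hc₁, e₁⟩ := hG.nProd_conj_x (F := F) hl hp
      obtain ⟨c₂, hc₂, e₂⟩ := hG.H_conj_x hh (hG.wperm_lt hl hp)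
      have e3 : n * hG.xU hp t * n⁻¹ = h * (hG.nProd l * hG.xU hp t * (hG.nProd l)⁻¹) * h⁻¹ := by
        rw [e]; group
      rw [e3, e₁, e₂]
      exact hG.xU_mem_V _ hlt _
    set x := hG.xU hp (1 : F) with hx
    have hxU : x ∈ D.posUnipotent F := hG.xU_mem_U hp ((hG.isPos_iff hp).1 (hG.simple_pos hi)) _
    have hyU : b' * x * b'⁻¹ ∈ D.posUnipotent F :=
      (Subgroup.mem_normalizer_iff.1 (hG.B_le_normalizer_U hb') x).1 hxU
    have hyUi : b' * x * b'⁻¹ ∉ Ui D F i := fun hy =>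
      hG.x_simple_not_mem_Ui hi ((Subgroup.mem_normalizer_iff.1 (hG.B_le_normalizer_Ui hi hb') x).2 hy)
    have hc1 := hc i hi
    set y := b' * x * b'⁻¹ with hy
    have e1 : n * y * n⁻¹ = b⁻¹ * x * b := by
      have e2 : b * n * b' * x = x * (b * n * b') := hc1
      have e3 : b * n * y * n⁻¹ = x * b := by
        rw [hy]
        have : b * n * (b' * x * b'⁻¹) * n⁻¹ = (b * n * b' * x) * b'⁻¹ * n⁻¹ := by group
        rw [this, e2]
        group
      have : n * y * n⁻¹ = b⁻¹ * (b * n * y * n⁻¹) := by group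
      rw [this, e3]
      group
    have hyB : n * y * n⁻¹ ∈ D.borelSubgroup F := by
      rw [e1]
      exact Subgroup.mul_mem _ (Subgroup.mul_mem _ (Subgroup.inv_mem _ hb) (le_borel_U hxU)) hb
    obtain ⟨a, ha, d, hd, e2⟩ := hG.U_split
      (fun r => (D.rootSubgroup F r).map (MulAut.conj n).toMonoidHom ≤ D.negUnipotent F) hyU
    have h1 : n * a * n⁻¹ ∈ D.negUnipotent F := by
      refine conj_mem_of_gen _ ?_ ha
      rintro z ⟨r, t, ⟨hr, hP⟩, hz⟩
      rw [hG.eq_xU hr.1 hz]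
      exact hG.conj_le_V hr.1 hP t
    have h2 : n * d * n⁻¹ ∈ D.posUnipotent F := by
      refine conj_mem_of_gen _ ?_ hd
      rintro z ⟨r, t, ⟨hr, hP⟩, hz⟩
      rw [hG.eq_xU hr.1 hz]
      exact hG.map_conj_le_V hn hr.1 hP t
    have h3 : n * a * n⁻¹ ∈ D.borelSubgroup F := by
      have : n * a * n⁻¹ = (n * y * n⁻¹) * (n * d * n⁻¹)⁻¹ := by
        rw [e2]; group
      rw [this]
      exact Subgroup.mul_mem _ hyB (Subgroup.inv_mem _ (le_borel_U h2))
    have h4 : n * a * n⁻¹ = 1 := by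
      have : n * a * n⁻¹ ∈ D.borelSubgroup F ⊓ D.negUnipotent F := ⟨h3, h1⟩
      rwa [hG.borel_inf_V, Subgroup.mem_bot] at this
    have h5 : a = 1 := by
      have : a = n⁻¹ * (n * a * n⁻¹) * n := by group
      rw [this, h4]
      group
    rw [h5, one_mul] at e2
    apply hyUi
    rw [e2]
    refine (Subgroup.closure_mono ?_) hd
    rintro z ⟨r, t, ⟨hr, hP⟩, hz⟩
    refine ⟨r, t, hr, ?_, hz⟩
    rintro rfl
    exact hP hPi
  have h1 := hG.nProd_mem_H_of_simple (F := F) _ l rfl hl key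
  have h2 : n ∈ D.diagonalSubgroup F := by
    rw [e]
    exact Subgroup.mul_mem _ hh h1
  exact Subgroup.mul_mem _ (Subgroup.mul_mem _ hb (le_borel_H h2)) hb'

end Tbl.Good2

namespace Tbl.Good3

variable (hG : T.Good3 D)
include hG

/-- An element of the group commuting with all `x_r(1)` is trivial. -/
theorem eq_one_of_comm_all {g : GL D.Idx F} (hg : g ∈ D.group F)
    (hc : ∀ r (hr : r < D.nroots), g * hG.xU hr (1 : F) = hG.xU hr 1 * g) : g = 1 := by
  have hG2 := hG.toGood2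
  obtain ⟨w, hw, hp⟩ := hG.exists_w0
  have hgB : g ∈ D.borelSubgroup F :=
    hG2.mem_B_of_comm hg (fun i hi => hc _ _)
  set n := hG.nProd (F := F) w with hn
  have hnN : n ∈ D.monomialSubgroup F := hG.nProd_mem_N hw
  have hg' : n⁻¹ * g * n ∈ D.group F :=
    Subgroup.mul_mem _ (Subgroup.mul_mem _ (Subgroup.inv_mem _ (hG.N_le_group hnN)) hg) (hG.N_le_group hnN)
  have hc' : ∀ r (hr : r < D.nroots), (n⁻¹ * g * n) * hG.xU hr (1 : F) = hG.xU hr 1 * (n⁻¹ * g * n) := by
    intro r hr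
    obtain ⟨c, hc0, e⟩ := hG.nProd_conj_x (F := F) hw hr
    have e1 := e 1
    have hcomm : g * (n * hG.xU hr 1 * n⁻¹) = (n * hG.xU hr 1 * n⁻¹) * g := by
      rw [← hn] at e1
      rw [e1]
      rcases hc0 with rfl | rfl
      · simpa using hc _ (hG.wperm_lt hw hr)
      · have h3 : hG.xU (hG.wperm_lt hw hr) ((-1 : F) * 1) = (hG.xU (hG.wperm_lt hw hr) (1 : F))⁻¹ := by
          rw [hG.xU_inv]
          simp
        rw [h3]
        have h4 := hc _ (hG.wperm_lt hw hr)
        generalize hG.xU (hG.wperm_lt hw hr) (1 : F) = X at h4 ⊢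
        calc g * X⁻¹ = X⁻¹ * (X * g) * X⁻¹ := by group
          _ = X⁻¹ * g := by rw [← h4]; group
    calc (n⁻¹ * g * n) * hG.xU hr 1 = n⁻¹ * (g * (n * hG.xU hr 1 * n⁻¹)) * n := by group
      _ = n⁻¹ * ((n * hG.xU hr 1 * n⁻¹) * g) * n := by rw [hcomm]
      _ = hG.xU hr 1 * (n⁻¹ * g * n) := by group
  have hB' : n⁻¹ * g * n ∈ D.borelSubgroup F :=
    hG2.mem_B_of_comm hg' (fun i hi => hc' _ _)
  obtain ⟨u, hu, h, hh, e⟩ := hG.mem_borel hB'
  have hgn : g = (n * u * n⁻¹) * (n * h * n⁻¹) := by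
    have : g = n * (n⁻¹ * g * n) * n⁻¹ := by group
    rw [this, e]
    group
  have hv : n * u * n⁻¹ ∈ D.negUnipotent F := by
    rw [← hG.map_U_eq_V (F := F) hw hp]
    exact ⟨u, hu, rfl⟩
  have hh' : n * h * n⁻¹ ∈ D.diagonalSubgroup F := hG.N_conj_H hnN hh
  have hvB : n * u * n⁻¹ ∈ D.borelSubgroup F := by
    have : n * u * n⁻¹ = g * (n * h * n⁻¹)⁻¹ := by
      rw [hgn]; group
    rw [this]
    exact Subgroup.mul_mem _ hgB (Subgroup.inv_mem _ (Tbl.Good2.le_borel_H hh'))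
  have hv1 : n * u * n⁻¹ = 1 := by
    have : n * u * n⁻¹ ∈ D.borelSubgroup F ⊓ D.negUnipotent F := ⟨hvB, hv⟩
    rwa [hG.borel_inf_V, Subgroup.mem_bot] at this
  rw [hv1, one_mul] at hgn
  rw [hgn] at hc ⊢
  exact hG.H_eq_one_of_comm hh' hc

end Tbl.Good3

end

end Cfsg.Agent.Lib.Chev
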