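/-
The fixed points of a field automorphism on a Chevalley group.
-/
import Cfsg.Agent.Lib.Subf.Cent

set_option autoImplicit false

namespace Cfsg.Agent.Lib.Chev

open Cfsg.Lie Cfsg.Agent.Lib.ReeAut

section

variable {F : Type*} [Field F] {D : ChevalleyDatum} {T : Tbl}

/-- The subgroup generated by the root elements with fixed parameters. -/
def fixGen (D : ChevalleyDatum) (θ : F ≃+* F) : Subgroup (GL D.Idx F) :=
  Subgroup.closure {g | ∃ (s : ℕ) (t : F), θ t = t ∧ (g : Matrix D.Idx D.Idx F) = D.x F s t}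

lemma fixGen_fixed (θ : F ≃+* F) {g : GL D.Idx F} (hg : g ∈ fixGen D θ) : glMap D θ g = g := by
  induction hg using Subgroup.closure_induction with
  | mem x hx =>
    obtain ⟨s, t, ht, hx⟩ := hx
    apply Units.ext
    rw [glMap_coe, hx, x_map, ht]
  | one => exact map_one _
  | mul a b _ _ ha hb => rw [map_mul, ha, hb]
  | inv a _ ha => rw [map_inv, ha]

namespace Tbl.Good2

variable (hG : T.Good2 D)
include hG

lemma xU_mem_fixGen (θ : F ≃+* F) {r : ℕ} (hr : r < D.nroots) {t : F} (ht : θ t = t) :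
    hG.xU hr t ∈ fixGen D θ :=
  Subgroup.subset_closure ⟨r, t, ht, rfl⟩

lemma glMap_xU (θ : F ≃+* F) {r : ℕ} (hr : r < D.nroots) (t : F) :
    glMap D θ (hG.xU hr t) = hG.xU hr (θ t) := by
  apply Units.ext
  rw [glMap_coe, Tbl.Good.xU_coe, Tbl.Good.xU_coe, x_map]

lemma gW_mem_fixGen (θ : F ≃+* F) {l : List (ℕ × F)} (h : ∀ e ∈ l, θ e.2 = e.2) :
    hG.gW l ∈ fixGen D θ := by
  induction l with
  | nil => exact Subgroup.one_mem _
  | cons e l ih =>
    rw [hG.gW_cons]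
    refine Subgroup.mul_mem _ (Subgroup.subset_closure ⟨e.1, e.2, h e (by simp), hG.xN_coe _ _⟩) ?_
    exact ih (fun e' he' => h e' (List.mem_cons_of_mem _ he'))

/-- A fixed element of `U` is a product of root elements with fixed parameters. -/
lemma U_fix_mem (θ : F ≃+* F) {u : GL D.Idx F} (hu : u ∈ D.posUnipotent F) (hθ : glMap D θ u = u) :
    u ∈ fixGen D θ := by
  obtain ⟨t, ⟨ht0, e⟩, huniq⟩ := hG.U_normal_form.1 u hu
  have h1 := huniq (fun r => θ (t r)) ⟨fun r hr => by simp only [ht0 r hr, map_zero], ?_⟩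
  · rw [hG.eq_gW e]
    refine hG.gW_mem_fixGen θ ?_
    intro x hx
    obtain ⟨r, _, rfl⟩ := List.mem_map.1 hx
    exact congrFun h1 r
  · have h2 := congrArg (fun g : GL D.Idx F => (g : Matrix D.Idx D.Idx F)) hθ
    simp only [glMap_coe, e] at h2
    rw [wordMat_map] at h2
    rw [e, ← h2, List.map_map]
    rfl

lemma neg_one_fixed (θ : F ≃+* F) : θ (-1) = -1 := by simp

lemma nU_mem_fixGen (θ : F ≃+* F) {i : ℕ} (hi : i < D.rank) : hG.nU (F := F) hi ∈ fixGen D θ := by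
  rw [← hG.nR_simple hi]
  unfold Tbl.Good2.nR
  have hp := hG.simple_lt hi
  refine Subgroup.mul_mem _ (Subgroup.mul_mem _ (hG.xU_mem_fixGen θ hp (by simp)) (hG.xU_mem_fixGen θ _ (by simp)))
    (hG.xU_mem_fixGen θ hp (by simp))

lemma nProd_mem_fixGen (θ : F ≃+* F) {l : List ℕ} (hl : ∀ i ∈ l, i < D.rank) :
    hG.nProd (F := F) l ∈ fixGen D θ := by
  induction l with
  | nil => exact Subgroup.one_mem _
  | cons i l ih =>
    rw [nProd_cons, hG.nE_eq (hl i (by simp))]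
    exact Subgroup.mul_mem _ (hG.nU_mem_fixGen θ _) (ih (fun j hj => hl j (List.mem_cons_of_mem _ hj)))

/-- A fixed element of `H` normalises the group generated by the fixed root elements. -/
lemma H_conj_fixGen (θ : F ≃+* F) {h : GL D.Idx F} (hh : h ∈ D.diagonalSubgroup F) (hθ : glMap D θ h = h)
    {x : GL D.Idx F} (hx : x ∈ fixGen D θ) : h * x * h⁻¹ ∈ fixGen D θ := by
  refine conj_mem_of_gen _ ?_ hx
  rintro y ⟨s, t, ht, hy⟩
  by_cases hs : s < D.nroots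
  · rw [hG.eq_xU hs hy]
    obtain ⟨c, _, e⟩ := hG.H_conj_x hh hs
    rw [e]
    refine hG.xU_mem_fixGen θ hs ?_
    have h1 := congrArg (glMap D θ) (e t)
    rw [map_mul, map_mul, map_inv, hθ, hG.glMap_xU θ hs, hG.glMap_xU θ hs, ht, e] at h1
    have h2 := congrArg (fun g : GL D.Idx F => (g : Matrix D.Idx D.Idx F)) h1
    simp only [Tbl.Good.xU_coe] at h2
    exact (hG.x_inj hs h2).symm
  · have h1 : y = 1 := by
      apply Units.ext
      rw [hy]
      simp [ChevalleyDatum.x, hs]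
    rw [h1]
    simp [Subgroup.one_mem]

/-- The fixed points of the group: generated by the fixed root elements, modulo the fixed part of `H`. -/
theorem fix_decomp (θ : F ≃+* F) {g : GL D.Idx F} (hg : g ∈ D.group F) (hθ : glMap D θ g = g) :
    ∃ ℓ ∈ fixGen D θ, ∃ h ∈ D.diagonalSubgroup F, glMap D θ h = h ∧ g = ℓ * h := by
  obtain ⟨n, hn, b, hb, b', hb', rfl⟩ := hG.bruhat_exists hg
  obtain ⟨h₀, hh₀, l, hl, rfl⟩ := hG.N_form hn
  set n₁ := hG.nProd (F := F) l with hn₁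
  have hn₁N : n₁ ∈ D.monomialSubgroup F := hG.nProd_mem_N hl
  have hn₁L : n₁ ∈ fixGen D θ := hG.nProd_mem_fixGen θ hl
  have hn₁θ : glMap D θ n₁ = n₁ := fixGen_fixed θ hn₁L
  obtain ⟨h₂, hh₂, u, hu, rfl⟩ := hG.mem_borel' hb'
  obtain ⟨a, ha, c, hc, rfl⟩ := hG.U_split (fun r => ¬ (D.rootSubgroup F r).map (MulAut.conj n₁).toMonoidHom ≤ D.negUnipotent F) hu
  have h1 : n₁ * a * n₁⁻¹ ∈ D.posUnipotent F := by
    refine conj_mem_of_gen _ ?_ ha
    rintro y ⟨r, t, ⟨hr, hP⟩, hy⟩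
    rw [hG.eq_xU hr.1 hy]
    exact hG.map_conj_le_V hn₁N hr.1 hP t
  have h2 : n₁ * h₂ * n₁⁻¹ ∈ D.diagonalSubgroup F := hG.N_conj_H hn₁N hh₂
  set b₁ := b * h₀ * (n₁ * h₂ * n₁⁻¹) * (n₁ * a * n₁⁻¹) with hb₁d
  have hb₁ : b₁ ∈ D.borelSubgroup F :=
    Subgroup.mul_mem _ (Subgroup.mul_mem _ (Subgroup.mul_mem _ hb (Tbl.Good2.le_borel_H hh₀)) (Tbl.Good2.le_borel_H h2))
      (Tbl.Good2.le_borel_U h1)
  have hform : b * (h₀ * n₁) * (h₂ * (a * c)) = b₁ * n₁ * c := by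
    rw [hb₁d]; group
  rw [hform] at hθ ⊢
  -- the form of `c`
  have hc' : c ∈ Subgroup.closure {x : GL D.Idx F | ∃ (r : ℕ) (t : F), D.IsPosRoot r ∧
            (D.rootSubgroup F r).map (MulAut.conj n₁).toMonoidHom ≤ D.negUnipotent F ∧ (x : Matrix D.Idx D.Idx F) = D.x F r t} := by
    refine (Subgroup.closure_mono ?_) hc
    rintro x ⟨r, t, ⟨hr, hP⟩, hx⟩
    exact ⟨r, t, hr, not_not.1 hP, hx⟩
  have hcθ : ∀ y ∈ Subgroup.closure {x : GL D.Idx F | ∃ (r : ℕ) (t : F), D.IsPosRoot r ∧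
            (D.rootSubgroup F r).map (MulAut.conj n₁).toMonoidHom ≤ D.negUnipotent F ∧ (x : Matrix D.Idx D.Idx F) = D.x F r t},
      glMap D θ y ∈ Subgroup.closure {x : GL D.Idx F | ∃ (r : ℕ) (t : F), D.IsPosRoot r ∧
            (D.rootSubgroup F r).map (MulAut.conj n₁).toMonoidHom ≤ D.negUnipotent F ∧ (x : Matrix D.Idx D.Idx F) = D.x F r t} := by
    intro y hy
    induction hy using Subgroup.closure_induction with
    | mem x hx =>
      obtain ⟨r, t, hr, hP, hx⟩ := hx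
      refine Subgroup.subset_closure ⟨r, θ t, hr, hP, ?_⟩
      rw [glMap_coe, hx, x_map]
    | one => rw [map_one]; exact Subgroup.one_mem _
    | mul x y _ _ hx hy => rw [map_mul]; exact Subgroup.mul_mem _ hx hy
    | inv x _ hx => rw [map_inv]; exact Subgroup.inv_mem _ hx
  -- `θ` preserves `B`
  have hBθ : ∀ {y : GL D.Idx F}, y ∈ D.borelSubgroup F → glMap D θ y ∈ D.borelSubgroup F := by
    intro y hy
    obtain ⟨u', hu', h', hh', rfl⟩ := hG.mem_borel hy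
    rw [map_mul]
    refine Subgroup.mul_mem _ (Tbl.Good2.le_borel_U ?_) (Tbl.Good2.le_borel_H (glMap_H θ hh'))
    exact glMap_rootsGen θ (P := D.IsPosRoot) (fun r hr => hr.1) hu'
  rw [map_mul, map_mul, hn₁θ] at hθ
  obtain ⟨_, h3⟩ := hG.canonical_form.2 _ _ n₁ n₁ _ _ (hBθ hb₁) hb₁ hn₁N hn₁N (hcθ c hc') hc' hθ
  obtain ⟨h4, h5⟩ := h3 rfl
  -- `c` and the parts of `b₁` are fixed
  have hcL : c ∈ fixGen D θ := by
    refine hG.U_fix_mem θ ?_ h5
    refine (Subgroup.closure_mono ?_) hc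
    rintro x ⟨r, t, ⟨hr, _⟩, hx⟩
    exact ⟨r, t, hr, hx⟩
  obtain ⟨u₁, hu₁, h₁, hh₁, e₁⟩ := hG.mem_borel hb₁
  rw [e₁] at h4
  rw [map_mul] at h4
  have hu₁θ : glMap D θ u₁ ∈ D.posUnipotent F :=
    glMap_rootsGen θ (P := D.IsPosRoot) (fun r hr => hr.1) hu₁
  have h6 : u₁⁻¹ * glMap D θ u₁ = h₁ * (glMap D θ h₁)⁻¹ := by
    have : glMap D θ u₁ = u₁ * h₁ * (glMap D θ h₁)⁻¹ := by
      rw [← h4]; group
    rw [this]; group
  have h7 : u₁⁻¹ * glMap D θ u₁ ∈ D.posUnipotent F ⊓ D.diagonalSubgroup F := by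
    refine ⟨Subgroup.mul_mem _ (Subgroup.inv_mem _ hu₁) hu₁θ, ?_⟩
    rw [h6]
    exact Subgroup.mul_mem _ hh₁ (Subgroup.inv_mem _ (glMap_H θ hh₁))
  rw [hG.U_inf_H, Subgroup.mem_bot] at h7
  have hu₁f : glMap D θ u₁ = u₁ := by
    have : glMap D θ u₁ = u₁ * (u₁⁻¹ * glMap D θ u₁) := by group
    rw [this, h7, mul_one]
  have hh₁f : glMap D θ h₁ = h₁ := by
    rw [h6] at h7
    exact (mul_inv_eq_one.1 h7).symm
  refine ⟨u₁ * (h₁ * (n₁ * c) * h₁⁻¹), ?_, h₁, hh₁, hh₁f, ?_⟩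
  · refine Subgroup.mul_mem _ (hG.U_fix_mem θ hu₁ hu₁f) ?_
    exact hG.H_conj_fixGen θ hh₁ hh₁f (Subgroup.mul_mem _ hn₁L hcL)
  · rw [e₁]; group

/-- `H` is commutative. -/
lemma H_comm {a b : GL D.Idx F} (ha : a ∈ D.diagonalSubgroup F) (hb : b ∈ D.diagonalSubgroup F) :
    a * b = b * a := by
  exact diagSub_comm (hG.diagonalSubgroup_le ha) (hG.diagonalSubgroup_le hb)

/-- The commutators of fixed elements lie in the group generated by fixed root elements: in the form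
of a normality statement. -/
theorem conj_mem_of_fixGen_le (θ : F ≃+* F) {K : Subgroup (GL D.Idx F)} (hKG : K ≤ D.group F)
    (hLK : fixGen D θ ≤ K) (hKfix : ∀ x ∈ K, glMap D θ x = x) {g : GL D.Idx F} (hg : g ∈ D.group F)
    (hθ : glMap D θ g = g) {x : GL D.Idx F} (hx : x ∈ K) : g * x * g⁻¹ ∈ K := by
  obtain ⟨ℓ, hℓ, h, hh, hhθ, rfl⟩ := hG.fix_decomp θ hg hθ
  obtain ⟨ℓ₂, hℓ₂, h₂, hh₂, _, e⟩ := hG.fix_decomp θ (hKG hx) (hKfix x hx)
  have h1 : h * x * h⁻¹ = (h * ℓ₂ * h⁻¹ * ℓ₂⁻¹) * x := by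
    have hc := hG.H_comm hh hh₂
    have : h * h₂ * h⁻¹ = h₂ := by rw [hc]; group
    calc h * x * h⁻¹ = (h * ℓ₂ * h⁻¹) * (h * h₂ * h⁻¹) := by rw [e]; group
      _ = (h * ℓ₂ * h⁻¹) * h₂ := by rw [this]
      _ = (h * ℓ₂ * h⁻¹ * ℓ₂⁻¹) * (ℓ₂ * h₂) := by group
      _ = _ := by rw [e]
  have h2 : h * x * h⁻¹ ∈ K := by
    rw [h1]
    exact Subgroup.mul_mem _ (hLK (Subgroup.mul_mem _ (hG.H_conj_fixGen θ hh hhθ hℓ₂) (Subgroup.inv_mem _ hℓ₂))) hx
  have e2 : ℓ * h * x * (ℓ * h)⁻¹ = ℓ * (h * x * h⁻¹) * ℓ⁻¹ := by group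
  rw [e2]
  exact Subgroup.mul_mem _ (Subgroup.mul_mem _ (hLK hℓ) h2) (Subgroup.inv_mem _ (hLK hℓ))

end Tbl.Good2

namespace Tbl.Good3

variable (hG : T.Good3 D)
include hG

/-- The package: the centraliser is trivial and the normaliser consists of the fixed elements. -/
theorem subfield_cent_norm (θ : F ≃+* F) {K : Subgroup (GL D.Idx F)} (hKG : K ≤ D.group F)
    (hLK : fixGen D θ ≤ K) (hKfix : ∀ x ∈ K, glMap D θ x = x) :
    D.group F ⊓ Subgroup.centralizer (K : Set (GL D.Idx F)) = ⊥ ∧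
    ∀ g : GL D.Idx F, g ∈ D.group F → (g ∈ Subgroup.normalizer (K : Set (GL D.Idx F)) ↔ glMap D θ g = g) := by
  have hG2 := hG.toGood2
  have hcent : ∀ g, g ∈ D.group F → (∀ x ∈ K, g * x = x * g) → g = 1 := by
    intro g hg hc
    refine hG.eq_one_of_comm_all hg (fun r hr => hc _ (hLK (hG.xU_mem_fixGen θ hr (by simp))))
  refine ⟨?_, fun g hg => ⟨fun hn => ?_, fun hθ => ?_⟩⟩
  · rw [eq_bot_iff]
    rintro g ⟨hg, hc⟩
    rw [Subgroup.mem_bot]
    refine hcent g hg (fun x hx => ?_)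
    exact (Subgroup.mem_centralizer_iff.1 hc x hx).symm
  · have hmem : g⁻¹ * glMap D θ g ∈ D.group F := by
      refine Subgroup.mul_mem _ (Subgroup.inv_mem _ hg) ?_
      rw [← group_map D θ]
      exact ⟨g, hg, rfl⟩
    have h1 := hcent _ hmem (fun x hx => ?_)
    · have : glMap D θ g = g * (g⁻¹ * glMap D θ g) := by group
      rw [this, h1, mul_one]
    · have h2 := (Subgroup.mem_normalizer_iff.1 hn x).1 hx
      have h3 := hKfix _ h2
      rw [map_mul, map_mul, map_inv, hKfix x hx] at h3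
      have h4 : glMap D θ g * x = g * x * g⁻¹ * glMap D θ g := by
        rw [← h3]; group
      calc g⁻¹ * glMap D θ g * x = g⁻¹ * (glMap D θ g * x) := by group
        _ = g⁻¹ * (g * x * g⁻¹ * glMap D θ g) := by rw [h4]
        _ = x * (g⁻¹ * glMap D θ g) := by group
  · refine mem_normalizer_of_conj (fun x hx => hG2.conj_mem_of_fixGen_le θ hKG hLK hKfix hg hθ hx) (fun x hx => ?_)
    have hθ' : glMap D θ g⁻¹ = g⁻¹ := by rw [map_inv, hθ]
    have := hG2.conj_mem_of_fixGen_le θ hKG hLK hKfix (Subgroup.inv_mem _ hg) hθ' hx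
    rwa [inv_inv] at this

end Tbl.Good3

end

end Cfsg.Agent.Lib.Chev
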